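import Mathlib.CategoryTheory.Abelian.GrothendieckAxioms.Colim
import Mathlib.Algebra.Homology.ShortComplex.FunctorEquivalence
import Mathlib.Algebra.Homology.ShortComplex.Exact
import Mathlib.Algebra.Homology.ShortComplex.ExactFunctor

/-!
# Kernels of natural transformations of functors preserving filtered colimits

If `0 → G → F₁ → F₂` is a pointwise left exact sequence of functors `C ⥤ D` with `D` abelian such that
colimits of shape `J` are exact in `D`, and `F₁`, `F₂` preserve the colimit of `F : J ⥤ C`, then so does `G`.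
-/

set_option autoImplicit false

universe v₁ v₂ v₃ u₁ u₂ u₃

open CategoryTheory CategoryTheory.Limits

namespace Groth.Agent.Htor.H244.KerColim

variable {C : Type u₁} [Category.{v₁} C] {D : Type u₂} [Category.{v₂} D] [Abelian D]
  {J : Type u₃} [Category.{v₃} J] [HasColimitsOfShape J D] [HasExactColimitsOfShape J D]


omit [HasColimitsOfShape J D] [HasExactColimitsOfShape J D] in
lemma exact_of_pointwise (S : ShortComplex (J ⥤ D))
    (h : ∀ j, (S.map ((evaluation J D).obj j)).Exact) : S.Exact := by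
  rw [ShortComplex.exact_iff_isZero_homology]
  apply Functor.isZero
  intro j
  have h1 := (ShortComplex.exact_iff_isZero_homology _).1 (h j)
  have e : (S.map ((evaluation J D).obj j)).homology ≅ S.homology.obj j :=
    (S.mapHomologyIso ((evaluation J D).obj j))
  exact h1.of_iso e.symm

theorem preservesColimit_of_kernel {G F₁ F₂ : C ⥤ D} (α : G ⟶ F₁) (β : F₁ ⟶ F₂)
    (w : ∀ X, α.app X ≫ β.app X = 0)
    (hex : ∀ X, (ShortComplex.mk _ _ (w X)).Exact) (hmono : ∀ X, Mono (α.app X))
    (F : J ⥤ C) [PreservesColimit F F₁] [PreservesColimit F F₂] : PreservesColimit F G := by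
  constructor
  intro c hc
  constructor
  let S : ShortComplex (J ⥤ D) := ShortComplex.mk (Functor.whiskerLeft F α) (Functor.whiskerLeft F β)
    (by ext j; exact w _)
  have hS : S.Exact := exact_of_pointwise S (fun j => hex (F.obj j))
  let hc₁ := colimit.isColimit (F ⋙ G)
  have hc₂ : IsColimit (F₁.mapCocone c) := isColimitOfPreserves F₁ hc
  have hc₃ : IsColimit (F₂.mapCocone c) := isColimitOfPreserves F₂ hc
  let d : (colimit.cocone (F ⋙ G)).pt ⟶ G.obj c.pt := hc₁.desc (G.mapCocone c)
  have hd : ∀ j, (colimit.cocone (F ⋙ G)).ι.app j ≫ d = G.map (c.ι.app j) :=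
    fun j => hc₁.fac (G.mapCocone c) j
  have hf : ∀ j, (colimit.cocone (F ⋙ G)).ι.app j ≫ (d ≫ α.app c.pt) =
      S.f.app j ≫ (F₁.mapCocone c).ι.app j := by
    intro j
    rw [← Category.assoc, hd j]
    exact α.naturality (c.ι.app j)
  have hg : ∀ j, (F₁.mapCocone c).ι.app j ≫ β.app c.pt =
      S.g.app j ≫ (F₂.mapCocone c).ι.app j := by
    intro j
    exact β.naturality (c.ι.app j)
  have hT := colim.exact_mapShortComplex (S := S) hS hc₁ hc₂ hc₃ (d ≫ α.app c.pt) (β.app c.pt) hf hg
  have : ∀ j, Mono (S.f.app j) := fun j => hmono _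
  have : Mono S.f := NatTrans.mono_of_mono_app _
  have hfm : Mono (d ≫ α.app c.pt) := colim.map_mono' S.f hc₁ hc₂ (d ≫ α.app c.pt) hf
  have := hmono c.pt
  have hfm' : Mono (colim.mapShortComplex S hc₁ (F₁.mapCocone c) (F₂.mapCocone c)
    (d ≫ α.app c.pt) (β.app c.pt) hf hg).f := hfm
  have k1 := hT.fIsKernel
  have k2 := (hex c.pt).fIsKernel
  let e := IsLimit.conePointUniqueUpToIso k1 k2
  have he : e.hom = d := by
    rw [← cancel_mono (α.app c.pt)]
    exact IsLimit.conePointUniqueUpToIso_hom_comp k1 k2 WalkingParallelPair.zero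
  have : IsIso (hc₁.desc (G.mapCocone c)) := by
    change IsIso d
    rw [← he]
    infer_instance
  exact IsColimit.ofPointIso hc₁

theorem preservesColimitsOfShape_of_kernel {G F₁ F₂ : C ⥤ D} (α : G ⟶ F₁) (β : F₁ ⟶ F₂)
    (w : ∀ X, α.app X ≫ β.app X = 0)
    (hex : ∀ X, (ShortComplex.mk _ _ (w X)).Exact) (hmono : ∀ X, Mono (α.app X))
    [PreservesColimitsOfShape J F₁] [PreservesColimitsOfShape J F₂] :
    PreservesColimitsOfShape J G :=
  ⟨fun {F} => preservesColimit_of_kernel α β w hex hmono F⟩

end Groth.Agent.Htor.H244.KerColim
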