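import Groth.Agent.Htor.H244.KerColim
import Groth.Agent.LoccohA.TorLES
import Mathlib.Algebra.Category.ModuleCat.AB
import Mathlib.Algebra.Category.ModuleCat.Colimits
import Mathlib.Algebra.Category.ModuleCat.EnoughInjectives

/-!
# `Tor_p(M, -)` preserves filtered colimits
-/

set_option autoImplicit false

universe u

open CategoryTheory CategoryTheory.Limits MonoidalCategory

namespace Groth.Agent.Htor.H244.TorColim

open Groth.Agent.LoccohA.TorLES

variable {A : Type u} [CommRing A]

/-- `Tor_{n+1}(M'', -) ⟶ Tor_n(M', -)` for a short exact sequence `0 → M' → F → M'' → 0`. -/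
noncomputable def torδNat {S : ShortComplex (ModuleCat.{u} A)} (hS : S.ShortExact) (n : ℕ) :
    (Tor (ModuleCat.{u} A) (n + 1)).obj S.X₃ ⟶ (Tor (ModuleCat.{u} A) n).obj S.X₁ where
  app N := torδ hS N n
  naturality _ _ g := torδ_naturality_right hS g n

theorem torδ_comp {S : ShortComplex (ModuleCat.{u} A)} (hS : S.ShortExact) (N : ModuleCat.{u} A)
    (n : ℕ) : torδ hS N n ≫ ((Tor (ModuleCat.{u} A) n).map S.f).app N = 0 := by
  ext x
  exact (exact_δ_map hS N n).apply_apply_eq_zero x

theorem tor_preserves (J : Type u) [SmallCategory J] [IsFiltered J] (p : ℕ) :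
    ∀ M : ModuleCat.{u} A, PreservesColimitsOfShape J ((Tor (ModuleCat.{u} A) p).obj M) := by
  have : HasExactColimitsOfShape J (ModuleCat.{u} A) := inferInstance
  induction p with
  | zero =>
    intro M
    exact preservesColimitsOfShape_of_natIso
      (((tensoringLeft (ModuleCat.{u} A)).obj M).leftDerivedZeroIsoSelf).symm
  | succ n ih =>
    intro M
    let S : ShortComplex (ModuleCat.{u} A) :=
      ShortComplex.mk (kernel.ι (Projective.π M)) (Projective.π M) (kernel.condition _)
    have hS : S.ShortExact :=
      { exact := ShortComplex.exact_kernel _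
        mono_f := inferInstanceAs (Mono (kernel.ι (Projective.π M)))
        epi_g := inferInstanceAs (Epi (Projective.π M)) }
    have hP : Module.Projective A S.X₂ :=
      (IsProjective.iff_projective _).2 (inferInstanceAs (Projective (Projective.over M)))
    have h1 := ih S.X₁
    have h2 := ih S.X₂
    refine KerColim.preservesColimitsOfShape_of_kernel (G := (Tor (ModuleCat.{u} A) (n + 1)).obj S.X₃)
      (torδNat hS n) ((Tor (ModuleCat.{u} A) n).map S.f) (fun N => torδ_comp hS N n) ?_ ?_
    · intro N
      exact (ShortComplex.ShortExact.moduleCat_exact_iff_function_exact _).2 (exact_δ_map hS N n)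
    · intro N
      change Mono (torδ hS N n)
      rw [ModuleCat.mono_iff_injective, injective_iff_map_eq_zero]
      intro x hx
      obtain ⟨y, rfl⟩ := (exact_map_δ hS N n x).1 hx
      have := subsingleton_tor_of_flat S.X₂ N n
      rw [Subsingleton.elim y 0, map_zero]

end Groth.Agent.Htor.H244.TorColim
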