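import Groth.Agent.LoccohA.TorLES
import Groth.Agent.Dcoh.HomColim
import Mathlib.Algebra.Category.ModuleCat.AB
import Mathlib.Algebra.Category.ModuleCat.Colimits
import Mathlib.Algebra.Category.ModuleCat.EnoughInjectives

/-!
# `Tor_p(-, N)` preserves filtered colimits
-/

set_option autoImplicit false

universe u

open CategoryTheory CategoryTheory.Limits MonoidalCategory

namespace Groth.Agent.Htor.H244.TorFlipColim

open Groth.Agent.LoccohA.TorLES

variable {A : Type u} [CommRing A]

/-- `Tor_n(-, N)` is the homology of `- ⊗ P` for a projective resolution `P` of `N`. -/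
noncomputable def torFlipIso {N : ModuleCat.{u} A} (P : ProjectiveResolution N) (n : ℕ) :
    (Tor (ModuleCat.{u} A) n).flip.obj N ≅
      tcx P.complex ⋙ HomologicalComplex.homologyFunctor (ModuleCat.{u} A) (ComplexShape.down ℕ) n :=
  NatIso.ofComponents (fun M => torIso P n M) (fun f => torIso_hom_naturality P n f)

theorem tcx_preserves (P : ChainComplex (ModuleCat.{u} A) ℕ) (J : Type u) [SmallCategory J]
    [IsFiltered J] : PreservesColimitsOfShape J (tcx P) where
  preservesColimit {F} := by
    constructor
    intro c hc
    constructor
    refine HomologicalComplex.isColimitOfEval _ _ (fun i => ?_)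
    have : PreservesColimitsOfShape J (tensorRight (P.X i)) := by
      have e : tensorLeft (P.X i) ≅ tensorRight (P.X i) := BraidedCategory.tensorLeftIsoTensorRight _
      exact preservesColimitsOfShape_of_natIso e
    exact isColimitOfPreserves (tensorRight (P.X i)) hc

theorem tor_flip_preserves (J : Type u) [SmallCategory J] [IsFiltered J] (p : ℕ)
    (N : ModuleCat.{u} A) :
    PreservesColimitsOfShape J ((Tor (ModuleCat.{u} A) p).flip.obj N) := by
  have := tcx_preserves (A := A) (projectiveResolution N).complex J
  exact preservesColimitsOfShape_of_natIso (torFlipIso (projectiveResolution N) p).symm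

end Groth.Agent.Htor.H244.TorFlipColim
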